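import Mathlib
import Cfsg.Agent.S0023

/-!
# Coprime action (external form, `MulDistribMulAction`)

* `quotAction` : the action induced on `G ⧸ N` for an invariant normal subgroup `N`.
* `exists_invariant_sylow` : under coprime action with `A` or `G` solvable there is an
  `A`-invariant Sylow `p`-subgroup (a subgroup of order `p ^ v_p(|G|)`), from `Cfsg.Agent.S0023`.
* `exists_compl_of_exponent` : complements in abelian groups of prime exponent.
* `exists_le_maxInv` : every proper invariant subgroup lies in a maximal invariant subgroup.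
-/

set_option autoImplicit false

namespace Cfsg.Agent.Lib.Helper73.CoprimeAct

section Quot

variable {A G : Type*} [Group A] [Group G] [MulDistribMulAction A G]

/-- The action induced on a quotient by an invariant normal subgroup. -/
@[reducible] def quotAction (N : Subgroup G) [N.Normal]
    (hN : ∀ (a : A) (x : G), x ∈ N → a • x ∈ N) : MulDistribMulAction A (G ⧸ N) where
  smul a q := QuotientGroup.map N N (MulDistribMulAction.toMonoidHom G a) (fun x hx => hN a x hx) q
  one_smul q := by
    refine QuotientGroup.induction_on q (fun g => ?_)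
    show (((1 : A) • g : G) : G ⧸ N) = _
    rw [one_smul]
  mul_smul a b q := by
    refine QuotientGroup.induction_on q (fun g => ?_)
    show (((a * b) • g : G) : G ⧸ N) = ((a • (b • g) : G) : G ⧸ N)
    rw [mul_smul]
  smul_mul a q r := map_mul _ q r
  smul_one a := map_one _

theorem quotAction_mk (N : Subgroup G) [N.Normal]
    (hN : ∀ (a : A) (x : G), x ∈ N → a • x ∈ N) (a : A) (g : G) :
    letI := quotAction N hN
    a • (g : G ⧸ N) = ((a • g : G) : G ⧸ N) := rfl

end Quot

/-- Under a coprime action with `A` or `G` solvable, there is an `A`-invariant Sylow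
`p`-subgroup. -/
theorem exists_invariant_sylow {A G : Type*} [Group A] [Finite A] [Group G] [Finite G]
    [MulDistribMulAction A G] (hcop : (Nat.card A).Coprime (Nat.card G))
    (hsol : Group.IsSolvable A ∨ Group.IsSolvable G) (p : ℕ) [Fact p.Prime] :
    ∃ P : Subgroup G, Nat.card P = p ^ (Nat.card G).factorization p ∧
      ∀ (a : A), ∀ x ∈ P, a • x ∈ P := by
  classical
  obtain ⟨φ, hφ⟩ : ∃ φ : A →* MulAut G, φ = MulDistribMulAction.toMulAut A G := ⟨_, rfl⟩
  haveI : Finite (G ⋊[φ] A) := Finite.of_equiv (G × A) SemidirectProduct.equivProd.symm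
  obtain ⟨K, hK⟩ : ∃ K : Subgroup (G ⋊[φ] A), K = (SemidirectProduct.inl : G →* G ⋊[φ] A).range :=
    ⟨_, rfl⟩
  obtain ⟨A', hA'⟩ : ∃ A' : Subgroup (G ⋊[φ] A),
    A' = (SemidirectProduct.inr : A →* G ⋊[φ] A).range := ⟨_, rfl⟩
  haveI hKn : K.Normal := by
    rw [hK, SemidirectProduct.range_inl_eq_ker_rightHom]
    infer_instance
  have hAK : A' ≤ Subgroup.normalizer (K : Set (G ⋊[φ] A)) := by
    rw [Subgroup.normalizer_eq_top]
    exact le_top
  have hcK : Nat.card K = Nat.card G := by
    rw [hK]
    exact (Nat.card_congr (MonoidHom.ofInjective SemidirectProduct.inl_injective).toEquiv).symm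
  have hcA : Nat.card A' = Nat.card A := by
    rw [hA']
    exact (Nat.card_congr (MonoidHom.ofInjective SemidirectProduct.inr_injective).toEquiv).symm
  have hcop' : (Nat.card A').Coprime (Nat.card K) := by rw [hcK, hcA]; exact hcop
  have hsol' : Group.IsSolvable A' ∨ Group.IsSolvable K := by
    rcases hsol with h | h
    · left
      rw [hA']
      exact solvable_of_surjective
        (f := (MonoidHom.ofInjective (f := (SemidirectProduct.inr : A →* G ⋊[φ] A))
          SemidirectProduct.inr_injective).toMonoidHom) (MulEquiv.surjective _)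
    · right
      rw [hK]
      exact solvable_of_surjective
        (f := (MonoidHom.ofInjective (f := (SemidirectProduct.inl : G →* G ⋊[φ] A))
          SemidirectProduct.inl_injective).toMonoidHom) (MulEquiv.surjective _)
  obtain ⟨P, hP⟩ := Cfsg.Agent.S0023.result A' K hAK hcop' hsol' p
  obtain ⟨Q, hQ⟩ : ∃ Q : Subgroup (G ⋊[φ] A), Q = (P : Subgroup K).map K.subtype := ⟨_, rfl⟩
  rw [← hQ] at hP
  have hQK : Q ≤ K := by rw [hQ]; exact Subgroup.map_subtype_le _
  have hQcard : Nat.card Q = p ^ (Nat.card G).factorization p := by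
    rw [hQ, Subgroup.card_map_of_injective K.subtype_injective, Sylow.card_eq_multiplicity, hcK]
  refine ⟨Q.comap (SemidirectProduct.inl : G →* G ⋊[φ] A), ?_, ?_⟩
  · rw [← hQcard]
    have h1 : (Q.comap (SemidirectProduct.inl : G →* G ⋊[φ] A)).map
        (SemidirectProduct.inl : G →* G ⋊[φ] A) = Q := by
      apply Subgroup.map_comap_eq_self
      rw [← hK]
      exact hQK
    conv_rhs => rw [← h1]
    exact (Subgroup.card_map_of_injective SemidirectProduct.inl_injective).symm
  · intro a x hx
    rw [Subgroup.mem_comap] at hx ⊢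
    have ha : (SemidirectProduct.inr a : G ⋊[φ] A) ∈ A' := by rw [hA']; exact ⟨a, rfl⟩
    have h1 := (Subgroup.mem_normalizer_iff.1 (hP ha) _).1 hx
    have h2 : (SemidirectProduct.inl (a • x) : G ⋊[φ] A) =
        SemidirectProduct.inr a * SemidirectProduct.inl x * (SemidirectProduct.inr a)⁻¹ := by
      rw [← map_inv, ← SemidirectProduct.inl_aut, hφ]
      rfl
    rw [h2]
    exact h1

/-- Complements exist in a finite abelian group of prime exponent. -/
theorem exists_compl_of_exponent {V : Type*} [Group V] [Finite V] (p : ℕ) [Fact p.Prime]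
    (hcomm : ∀ a b : V, a * b = b * a) (hexp : ∀ v : V, v ^ p = 1) (U : Subgroup V) :
    ∃ W : Subgroup V, U ⊓ W = ⊥ ∧ U ⊔ W = ⊤ := by
  have hp : p.Prime := Fact.out
  obtain ⟨W, -, hW⟩ := Finite.exists_le_maximal (p := fun W : Subgroup V => U ⊓ W = ⊥)
    (a := ⊥) (by simp)
  refine ⟨W, hW.1, ?_⟩
  by_contra hne
  obtain ⟨v, hv⟩ : ∃ v, v ∉ U ⊔ W := by
    by_contra hcon
    push Not at hcon
    exact hne (eq_top_iff.2 (fun x _ => hcon x))
  haveI hzn : (Subgroup.zpowers v).Normal := ⟨fun n hn g => by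
    rw [hcomm g n]
    simpa using hn⟩
  have hv1 : v ≠ 1 := fun h => hv (h ▸ Subgroup.one_mem _)
  have hvord : orderOf v = p := orderOf_eq_prime (hexp v) hv1
  have hdisj : U ⊓ (W ⊔ Subgroup.zpowers v) = ⊥ := by
    rw [eq_bot_iff]
    intro u hu
    obtain ⟨huU, huW⟩ := Subgroup.mem_inf.1 hu
    obtain ⟨w, hw, z, hz, rfl⟩ := Subgroup.mem_sup_of_normal_right.1 huW
    by_cases hz1 : z = 1
    · rw [hz1, mul_one] at huU ⊢
      have : w ∈ U ⊓ W := Subgroup.mem_inf.2 ⟨huU, hw⟩
      rw [hW.1] at this
      exact this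
    · exfalso
      apply hv
      have hzle : Subgroup.zpowers z ≤ Subgroup.zpowers v := by
        rw [Subgroup.zpowers_le]; exact hz
      have hzeq : Subgroup.zpowers z = Subgroup.zpowers v := by
        apply Subgroup.eq_of_le_of_card_ge hzle
        rw [Nat.card_zpowers, Nat.card_zpowers, hvord]
        have hd : orderOf z ∣ p := orderOf_dvd_of_pow_eq_one (hexp z)
        rcases (Nat.dvd_prime hp).1 hd with h | h
        · exact absurd (orderOf_eq_one_iff.1 h) hz1
        · exact h.ge
      have hzUW : z ∈ U ⊔ W := by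
        have : z = w⁻¹ * (w * z) := by group
        rw [this]
        exact Subgroup.mul_mem _ (Subgroup.mem_sup_right (W.inv_mem hw))
          (Subgroup.mem_sup_left huU)
      have hvz : v ∈ Subgroup.zpowers z := by rw [hzeq]; exact Subgroup.mem_zpowers v
      exact (Subgroup.zpowers_le.2 hzUW) hvz
  have hle := hW.2 hdisj le_sup_left
  exact hv (Subgroup.mem_sup_right (hle (Subgroup.mem_sup_right (Subgroup.mem_zpowers v))))

/-- Every proper invariant subgroup lies in a maximal invariant subgroup. -/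
theorem exists_le_maxInv {A G : Type*} [Group G] [Finite G] [SMul A G] (L : Subgroup G)
    (hL : L ≠ ⊤) (hLA : ∀ a : A, ∀ x ∈ L, a • x ∈ L) :
    ∃ M : Subgroup G, L ≤ M ∧ M ≠ ⊤ ∧ (∀ a : A, ∀ x ∈ M, a • x ∈ M) ∧
      ∀ L' : Subgroup G, M < L' → (∀ a : A, ∀ x ∈ L', a • x ∈ L') → L' = ⊤ := by
  obtain ⟨M, hLM, hM⟩ := Finite.exists_le_maximal
    (p := fun M : Subgroup G => M ≠ ⊤ ∧ ∀ a : A, ∀ x ∈ M, a • x ∈ M) (a := L) ⟨hL, hLA⟩
  refine ⟨M, hLM, hM.1.1, hM.1.2, ?_⟩
  intro L' hML' hL'A
  by_contra hne
  exact (not_le_of_gt hML') (hM.2 ⟨hne, hL'A⟩ hML'.le)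

end Cfsg.Agent.Lib.Helper73.CoprimeAct
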